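import Cfsg.Agent.H393.BF.Abs
import Cfsg.Agent.H316.VZ.MFive
import Cfsg.Agent.H828.BThree

/-!
# S4555/S4559: the Baby Monster, `p = 5` (helper393)

`x` of order 5 and fixed rank 0 of the Monster (class 5B), `t` an involution commuting with `x`, not conjugate to `z`
(class 2A): `O_{5'}(C(x) ∩ C(t)) = ⟨t⟩`, and a normal 5-subgroup of `C(x) ∩ C(t)` has a solvable centralizer: the
centralizer of the image of `x` in `B = C(t)/⟨t⟩` is 5-constrained.

* `constr_of_surj` : quotients by `p'`-groups;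
* `zero` : in a group with a chart; `baby`, `b_five` : `VOrdP 5` for groups isomorphic to `B` with more than one 5-block.
-/

set_option autoImplicit false
set_option maxRecDepth 100000

namespace Cfsg.Agent.H393.BF

open Subgroup Cfsg Cfsg.Agent.BpTab Cfsg.Agent.Lib Cfsg.Agent.BpSpor
open Cfsg.Agent.MonsterU Cfsg.Agent.MFive
open Cfsg.Agent.LThreeMB (fr Zx XX zD toCC toCC_inj toXX self conj_Q)
open Cfsg.Agent.MonsterU.Ch
open Cfsg.Agent.MonsterU.Lam2 (L2)
open Cfsg.Agent.J2Type.Model Cfsg.Agent.KFacts.J2.Basic Cfsg.Agent.J2Type.CStruct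
open Cfsg.Spor (Co1)

universe u v

/-- **Quotients by `p'`-groups.** -/
theorem constr_of_surj {X : Type u} {Y : Type v} [Group X] [Group Y] [Finite X] {p : ℕ} [hp : Fact p.Prime]
    (g : X →* Y) (hg : Function.Surjective g) (hk : (Nat.card ↥g.ker).Coprime p)
    (hV : ∀ V : Subgroup X, V.Normal → (Nat.card ↥V).Coprime p → V ≤ g.ker) {R : Subgroup X} (hR : R.Normal)
    (hRp : IsPGroup p ↥R) (hRs : Group.IsSolvable ↥(centralizer (R : Set X))) :
    centralizer (pCore p Y : Set Y) ≤ pCore p Y := by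
  have hfin : Finite Y := Finite.of_surjective g hg
  have hn : (R.map g).Normal := hR.map g hg
  have hcore : pPrimeCore p Y = ⊥ := by
    have hVn : (pPrimeCore p Y).Normal := Cores.pPrimeCore_normal p
    have h1 : (pPrimeCore p Y).comap g ≤ g.ker := by
      refine hV _ (hVn.comap g) ?_
      have h2 : Nat.card ↥((pPrimeCore p Y).comap g) ∣ Nat.card ↥(pPrimeCore p Y) * Nat.card ↥g.ker := by
        let r : ↥((pPrimeCore p Y).comap g) →* ↥(pPrimeCore p Y) := g.subgroupComap (pPrimeCore p Y)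
        have h3 : Nat.card ↥((pPrimeCore p Y).comap g) = Nat.card (↥((pPrimeCore p Y).comap g) ⧸ r.ker) * Nat.card ↥r.ker :=
          card_eq_card_quotient_mul_card_subgroup r.ker
        have h4 : Nat.card (↥((pPrimeCore p Y).comap g) ⧸ r.ker) = Nat.card ↥r.range :=
          Nat.card_congr (QuotientGroup.quotientKerEquivRange r).toEquiv
        have h5 : Nat.card ↥r.ker ∣ Nat.card ↥g.ker := by
          have h6 : r.ker.map (Subgroup.subtype _) ≤ g.ker := by
            rintro _ ⟨a, ha, rfl⟩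
            exact MonoidHom.mem_ker.2 (congrArg Subtype.val (MonoidHom.mem_ker.1 ha))
          have h7 := card_dvd_of_le h6
          rwa [card_map_of_injective (Subgroup.subtype_injective _)] at h7
        rw [h3, h4]
        exact mul_dvd_mul (Subgroup.card_subgroup_dvd_card _) h5
      exact Nat.Coprime.coprime_dvd_left h2 (Nat.Coprime.mul_left (Cores.pPrimeCore_coprime p) hk)
    rw [eq_bot_iff]
    intro y hy
    obtain ⟨a, rfl⟩ := hg y
    exact mem_bot.2 (MonoidHom.mem_ker.1 (h1 hy))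
  refine H316.VZ.constrained_of_radical hcore (S := R.map g) (hRp.map g) ?_
  have h1 : centralizer ((R.map g : Subgroup Y) : Set Y) ≤ (centralizer (R : Set X)).map g := by
    intro y hy
    obtain ⟨c, rfl⟩ := hg y
    refine mem_map_of_mem g (mem_centralizer_iff.2 fun r hr => ?_)
    have h2 : g (c * r * c⁻¹ * r⁻¹) = 1 := by
      have h3 := mem_centralizer_iff.1 hy (g r) (mem_map_of_mem g hr)
      rw [map_mul, map_mul, map_mul, map_inv, map_inv, ← h3]
      group
    have h3 : c * r * c⁻¹ * r⁻¹ ∈ R := R.mul_mem (hR.conj_mem r hr c) (R.inv_mem hr)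
    obtain ⟨k, hk'⟩ := hRp ⟨_, h3⟩
    have h4 : (c * r * c⁻¹ * r⁻¹) ^ p ^ k = 1 := congrArg Subtype.val hk'
    have h5 : orderOf (c * r * c⁻¹ * r⁻¹) ∣ Nat.card ↥g.ker := by
      rw [← Subgroup.orderOf_mk _ (MonoidHom.mem_ker.2 h2)]
      exact orderOf_dvd_natCard _
    have h6 : c * r * c⁻¹ * r⁻¹ = 1 := orderOf_eq_one_iff.1 (Nat.Coprime.eq_one_of_dvd
      (Nat.Coprime.pow_right k (hk.coprime_dvd_left h5)) (orderOf_dvd_of_pow_eq_one h4))
    calc r * c = (c * r * c⁻¹ * r⁻¹)⁻¹ * (c * r) := by group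
      _ = c * r := by rw [h6, inv_one, one_mul]
  have h2 : Group.IsSolvable ↥((centralizer (R : Set X)).map g) :=
    Group.isSolvable_of_surjective (g.subgroupMap_surjective _)
  exact Group.isSolvable_of_isSolvable_injective (inclusion_injective h1)

theorem core_bot_of_constr {D : Type u} [Group D] [Finite D] {p : ℕ} [hp : Fact p.Prime]
    (h1 : centralizer (pCore p D : Set D) ≤ pCore p D) : pPrimeCore p D = ⊥ := by
  have hn1 : (pPrimeCore p D).Normal := Cores.pPrimeCore_normal p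
  have hn2 : (pCore p D).Normal := Cores.pCore_normal p
  have hc := Cores.pPrimeCore_coprime (G := D) p
  have hdis : pPrimeCore p D ⊓ pCore p D = ⊥ := by
    obtain ⟨n, hn⟩ := IsPGroup.iff_card.1 (Cores.pCore_isPGroup (G := D) p)
    refine (Subgroup.disjoint_of_coprime_natCard ?_).eq_bot
    rw [hn]
    exact Nat.Coprime.pow_right n hc
  rw [← hdis]
  refine le_antisymm (le_inf le_rfl ?_) inf_le_left
  refine le_trans ?_ h1
  intro a ha
  rw [mem_centralizer_iff]
  intro b hb
  have h2 : a * b * a⁻¹ * b⁻¹ ∈ pPrimeCore p D ⊓ pCore p D := by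
    refine ⟨?_, (pCore p D).mul_mem (hn2.conj_mem b hb a) ((pCore p D).inv_mem hb)⟩
    have e : a * b * a⁻¹ * b⁻¹ = a * (b * a⁻¹ * b⁻¹) := by group
    rw [e]
    exact (pPrimeCore p D).mul_mem ha (hn1.conj_mem _ ((pPrimeCore p D).inv_mem ha) b)
  rw [hdis, mem_bot, mul_inv_eq_one, mul_inv_eq_iff_eq_mul] at h2
  exact h2.symm

section chart

variable {G : Type u} [Group G] {Q : Subgroup G} {z : G} {eta : G → L2}
  {pi : Subgroup.centralizer ({z} : Set G) →* Co1}

/-- fixed points of conjugates of `z` -/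
theorem card_fix_dvd [Finite G] (h : Chart Q z eta pi) {x : G} {S : Subgroup ↥(centralizer ({x} : Set G))}
    (hSp : IsPGroup 5 ↥S) {s : ↥(centralizer ({x} : Set G))} {g : G} (hg : g * z * g⁻¹ = s) :
    Nat.card ↥(S ⊓ centralizer ({s} : Set ↥(centralizer ({x} : Set G)))) ∣ 5 ^ 4 := by
  let T : Subgroup ↥(centralizer ({x} : Set G)) := S ⊓ centralizer ({s} : Set ↥(centralizer ({x} : Set G)))
  let j : ↥(centralizer ({x} : Set G)) →* G := (MulAut.conj g⁻¹).toMonoidHom.comp (centralizer ({x} : Set G)).subtype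
  have hj : Function.Injective j := (MulAut.conj g⁻¹).injective.comp Subtype.val_injective
  have h1 : Nat.card ↥(T.map j) = Nat.card ↥T := card_map_of_injective hj
  have h2 : T.map j ≤ centralizer ({z} : Set G) := by
    rintro _ ⟨c, hc, rfl⟩
    rw [mem_centralizer_singleton_iff]
    have h3 : (c : G) * s = s * c := congrArg Subtype.val (mem_centralizer_singleton_iff.1 hc.2)
    show g⁻¹ * (c : G) * g⁻¹⁻¹ * z = z * (g⁻¹ * (c : G) * g⁻¹⁻¹)
    calc g⁻¹ * (c : G) * g⁻¹⁻¹ * z = g⁻¹ * (c * (g * z * g⁻¹)) * g := by group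
      _ = g⁻¹ * ((g * z * g⁻¹) * c) * g := by rw [hg, h3]
      _ = _ := by group
  have h3 : IsPGroup 5 ↥T := hSp.to_le inf_le_left
  rw [← h1]
  exact B5.card_dvd_five h (h3.map j) h2

/-- **`C(x) ∩ C(t)`** for an involution `t` of the other class, `x` of fixed rank 0. -/
theorem zero [Finite G] (h : Chart Q z eta pi) (htr : TrNe 5 z pi) (hpr : HasPair 5 z pi) (hcl : WClassOf 5 1)
    {x : Subgroup.centralizer ({z} : Set G)} (hx : orderOf x = 5) (hfr : fr (pi x) = 1)
    (hJ : Spor.IsoJ2 (XX (pi x))) (hD : 5 ^ 4 ∣ Nat.card ↥(centralizer ({(x : G)} : Set G)))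
    {k : G} (hkx : k * (x : G) = x * k) (hkk : k * k = z) :
    ∃ T : ↥(centralizer ({(x : G)} : Set G)), T * T = 1 ∧ T ≠ 1 ∧ (∀ d : G, d * (T : G) * d⁻¹ ≠ z) ∧
      ∃ R : Subgroup ↥(centralizer ({T} : Set ↥(centralizer ({(x : G)} : Set G)))), R.Normal ∧ IsPGroup 5 ↥R ∧
        Group.IsSolvable ↥(centralizer (R : Set ↥(centralizer ({T} : Set ↥(centralizer ({(x : G)} : Set G)))))) ∧
        ∀ V : Subgroup ↥(centralizer ({T} : Set ↥(centralizer ({(x : G)} : Set G)))), V.Normal →
          (Nat.card ↥V).Coprime 5 → ∀ y ∈ V, (y : ↥(centralizer ({(x : G)} : Set G))) = 1 ∨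
            (y : ↥(centralizer ({(x : G)} : Set G))) = T := by
  have h5 : Fact (Nat.Prime 5) := ⟨Nat.prime_five⟩
  obtain ⟨f1, f2, f3, f4⟩ := M5.j2_facts hJ
  obtain ⟨N, hN⟩ := M5.exists_rad h (by decide) hx hfr (fun d hd hc => isolated h htr hx hfr d hd hc) f1 f2
  have hkz : k * z = z * k := by rw [← hkk, mul_assoc]
  let kD : ↥(centralizer ({zD x} : Set ↥(centralizer ({(x : G)} : Set G)))) :=
    ⟨⟨k, mem_centralizer_singleton_iff.2 hkx⟩, mem_centralizer_singleton_iff.2 (Subtype.ext hkz)⟩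
  have hkD : (kD : ↥(centralizer ({(x : G)} : Set G))) * kD = zD x := Subtype.ext hkk
  obtain ⟨S, hS, hSp, hSN, hxS, hs⟩ := hN.exists_radical f3 (by decide) hkD hD f4
  have hzz : z * z = 1 := h.large.z_sq
  -- `O_{5'}(C(x)) = 1`
  have hcore : pPrimeCore 5 ↥(centralizer ({(x : G)} : Set G)) = ⊥ := by
    have h1 := H316.VZ.MFive.constrained h htr hpr hcl hx hfr hJ hD hkx hkk
    exact core_bot_of_constr h1
  -- the two involutions
  obtain ⟨u, g₀, huz, hux, hune, hg₀⟩ := B5.exists_u h hpr hcl hx hfr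
  have huu : u * u = 1 := by
    rw [← hg₀]
    calc g₀ * z * g₀⁻¹ * (g₀ * z * g₀⁻¹) = g₀ * (z * z) * g₀⁻¹ := by group
      _ = 1 := by rw [hzz]; group
  have hu1 : u ≠ 1 := by
    intro h1
    apply h.large.z_ne
    calc z = g₀⁻¹ * (g₀ * z * g₀⁻¹) * g₀ := by group
      _ = 1 := by rw [hg₀, h1]; group
  let w : ↥(centralizer ({zD x} : Set ↥(centralizer ({(x : G)} : Set G)))) :=
    ⟨⟨u, mem_centralizer_singleton_iff.2 hux⟩, mem_centralizer_singleton_iff.2 (Subtype.ext huz)⟩
  have hww : (w : ↥(centralizer ({(x : G)} : Set G))) * w = 1 := Subtype.ext huu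
  have hw1 : (w : ↥(centralizer ({(x : G)} : Set G))) ≠ 1 := fun h1 => hu1 (congrArg Subtype.val h1)
  have hwz : (w : ↥(centralizer ({(x : G)} : Set G))) ≠ zD x := fun h1 => hune (congrArg Subtype.val h1)
  have hwzc : (w : ↥(centralizer ({(x : G)} : Set G))) * zD x = zD x * w := mem_centralizer_singleton_iff.1 w.2
  have hfin : Finite (XX (pi x)) := Finite.of_surjective _ hN.surj
  obtain ⟨t0, u0, Q0, v0, ρ0, Dt0⟩ := Cfsg.Agent.KFacts.J2.Facts.exists_dat_of hJ
  have hcw : IsConj t0 (toXX pi x w) := hN.isConj_f f3 (by decide) Dt0 hkD (Subtype.ext hww) hw1 hwz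
  have hDt : ∃ (u' : XX (pi x)) (Q' : Subgroup (centralizer ({toXX pi x w} : Set (XX (pi x)))))
      (v' : Fin 5 → centralizer ({toXX pi x w} : Set (XX (pi x))))
      (ρ' : centralizer ({toXX pi x w} : Set (XX (pi x))) →* SP), Dat (toXX pi x w) u' Q' v' ρ' := by
    obtain ⟨a, ha⟩ := isConj_iff.1 hcw
    have hc : MulAut.conj a t0 = toXX pi x w := ha
    obtain ⟨u', D'⟩ := Dt0.map (MulAut.conj a)
    rw [← hc]
    exact ⟨u', _, _, _, D'⟩
  obtain ⟨u', Q', v', ρ', Dt⟩ := hDt
  have hb1 : Nat.card ↥(S ⊓ centralizer ({(w : ↥(centralizer ({(x : G)} : Set G)))} :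
      Set ↥(centralizer ({(x : G)} : Set G)))) ∣ 5 ^ 4 := card_fix_dvd h hSp hg₀
  obtain ⟨T, hT⟩ : ∃ T : ↥(centralizer ({(x : G)} : Set G)), T = w * zD x := ⟨_, rfl⟩
  -- `T` is not conjugate to `z`
  have hTn : ∀ d : G, d * (T : G) * d⁻¹ ≠ z := by
    intro d hd
    refine not_both f3 (by decide) hN hSN hxS hs Dt hww hb1 (card_fix_dvd h hSp (g := d⁻¹) ?_)
    rw [← hT]
    calc d⁻¹ * z * d⁻¹⁻¹ = d⁻¹ * (d * (T : G) * d⁻¹) * d := by rw [hd, inv_inv]
      _ = T := by group
  have hnc : ∀ e : ↥(centralizer ({(x : G)} : Set G)), e * w * e⁻¹ ≠ w * zD x := by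
    intro e he
    rw [← hT] at he
    have h1 : (e : G) * u * (e : G)⁻¹ = T := congrArg Subtype.val he
    refine hTn ((e * g₀ : G)⁻¹) ?_
    calc ((e * g₀ : G)⁻¹) * (T : G) * ((e * g₀ : G)⁻¹)⁻¹ = g₀⁻¹ * ((e : G)⁻¹ * T * e) * g₀ := by group
      _ = g₀⁻¹ * ((e : G)⁻¹ * ((e : G) * u * (e : G)⁻¹) * e) * g₀ := by rw [h1]
      _ = g₀⁻¹ * ((g₀ * z * g₀⁻¹)) * g₀ := by rw [hg₀]; group
      _ = z := by group
  have hTT : T * T = 1 := by
    rw [hT]
    calc (w : ↥(centralizer ({(x : G)} : Set G))) * zD x * (w * zD x) = w * (zD x * w) * zD x := by group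
      _ = (w * w) * (zD x * zD x) := by rw [← hwzc]; group
      _ = 1 := by rw [hww, hN.zz, mul_one]
  have hT1 : T ≠ 1 := by
    intro h1
    apply hwz
    rw [hT] at h1
    have h2 := eq_inv_of_mul_eq_one_left h1
    rw [h2]
    exact inv_eq_of_mul_eq_one_left hN.zz
  refine ⟨T, hTT, hT1, hTn, S.subgroupOf _, inferInstance, ?_, ?_, ?_⟩
  · exact hSp.of_injective
      (((centralizer ({T} : Set ↥(centralizer ({(x : G)} : Set G)))).subtype.comp
        (S.subgroupOf (centralizer ({T} : Set ↥(centralizer ({(x : G)} : Set G))))).subtype).codRestrict S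
          fun a => mem_subgroupOf.1 a.2)
      fun a b hab => Subtype.ext (Subtype.ext (congrArg (fun y : ↥S => (y : ↥(centralizer ({(x : G)} : Set G)))) hab))
  · subst hT
    have h1 := B5.solvable_E f3 (by decide) hN hSN hxS hs Dt hww hnc hb1
    have h2 := B5.solvable_Y (by decide) hN hSN hww hwzc
      (R := S ⊓ centralizer ({(w : ↥(centralizer ({(x : G)} : Set G))) * zD x} :
        Set ↥(centralizer ({(x : G)} : Set G)))) inf_le_left h1
    let g := ((centralizer ({(w : ↥(centralizer ({(x : G)} : Set G))) * zD x} :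
          Set ↥(centralizer ({(x : G)} : Set G)))).subtype.comp (Subgroup.subtype
          (centralizer ((S.subgroupOf (centralizer ({(w : ↥(centralizer ({(x : G)} : Set G))) * zD x} :
            Set ↥(centralizer ({(x : G)} : Set G)))) : Subgroup _) : Set _)))).codRestrict
        (centralizer ({(w : ↥(centralizer ({(x : G)} : Set G))) * zD x} : Set ↥(centralizer ({(x : G)} : Set G))) ⊓
          centralizer ((S ⊓ centralizer ({(w : ↥(centralizer ({(x : G)} : Set G))) * zD x} :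
            Set ↥(centralizer ({(x : G)} : Set G))) : Subgroup ↥(centralizer ({(x : G)} : Set G))) :
              Set ↥(centralizer ({(x : G)} : Set G)))) (by
        intro c
        refine ⟨(c : ↥(centralizer ({(w : ↥(centralizer ({(x : G)} : Set G))) * zD x} :
          Set ↥(centralizer ({(x : G)} : Set G))))).2, mem_centralizer_iff.2 fun r hr => ?_⟩
        have h3 := mem_centralizer_iff.1 c.2 ⟨r, hr.2⟩ (mem_subgroupOf.2 hr.1)
        exact congrArg Subtype.val h3)
    have hg : Function.Injective g := by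
      intro a b hab
      have h3 := congrArg Subtype.val hab
      exact Subtype.ext (Subtype.ext h3)
    exact Group.isSolvable_of_isSolvable_injective hg
  · intro V hV hVc y hy
    have hcard : Nat.card ↥(V.map (Subgroup.subtype _)) = Nat.card ↥V := card_map_of_injective (Subgroup.subtype_injective _)
    have h1 := core_cent f3 (by decide) hN hSN hxS hs Dt hww hb1 hcore (V := V.map (Subgroup.subtype _)) (by
        rintro _ ⟨a, -, rfl⟩
        rw [← hT]
        exact mem_centralizer_singleton_iff.1 a.2) (by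
        rintro c hc _ ⟨a, ha, rfl⟩
        rw [← hT] at hc
        exact ⟨_, hV.conj_mem a ha ⟨c, mem_centralizer_singleton_iff.2 hc⟩, rfl⟩) (by rw [hcard]; exact hVc)
      (mem_map_of_mem _ hy)
    rw [← hT] at h1
    exact h1

end chart

/-- **From `C(x) ∩ C(t)` to `C(t) / ⟨t⟩`.** -/
theorem constr_quot {G : Type u} [Group G] [Finite G] {Y : Type v} [Group Y] {p : ℕ} [hp : Fact p.Prime] (hp2 : p ≠ 2)
    {x : G} (hx : orderOf x = p) {T : ↥(centralizer ({x} : Set G))} (hTT : T * T = 1) (hT1 : T ≠ 1)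
    (q : ↥(centralizer ({(T : G)} : Set G)) →* Y) (hq : Function.Surjective q)
    (hk : ∀ c, q c = 1 ↔ (c : G) = 1 ∨ (c : G) = T)
    {R : Subgroup ↥(centralizer ({T} : Set ↥(centralizer ({x} : Set G))))} (hR : R.Normal) (hRp : IsPGroup p ↥R)
    (hRs : Group.IsSolvable ↥(centralizer (R : Set ↥(centralizer ({T} : Set ↥(centralizer ({x} : Set G)))))))
    (hV : ∀ V : Subgroup ↥(centralizer ({T} : Set ↥(centralizer ({x} : Set G)))), V.Normal →
      (Nat.card ↥V).Coprime p → ∀ y ∈ V, (y : ↥(centralizer ({x} : Set G))) = 1 ∨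
        (y : ↥(centralizer ({x} : Set G))) = T) :
    ∃ y : Y, orderOf y = p ∧ centralizer (pCore p ↥(centralizer ({y} : Set Y)) : Set ↥(centralizer ({y} : Set Y))) ≤
      pCore p ↥(centralizer ({y} : Set Y)) := by
  have hTx : (T : G) * x = x * T := mem_centralizer_singleton_iff.1 T.2
  have hTT' : (T : G) * T = 1 := congrArg Subtype.val hTT
  have hT1' : (T : G) ≠ 1 := fun h => hT1 (Subtype.ext h)
  obtain ⟨m, hm⟩ : Odd p := hp.out.odd_of_ne_two hp2
  have hTp : (T : G) ^ p = T := by rw [hm, pow_succ, pow_mul, pow_two, hTT', one_pow, one_mul]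
  have hxp : x ^ p = 1 := by rw [← hx, pow_orderOf_eq_one]
  obtain ⟨x', hx'⟩ : ∃ x' : ↥(centralizer ({(T : G)} : Set G)), (x' : G) = x :=
    ⟨⟨x, mem_centralizer_singleton_iff.2 hTx.symm⟩, rfl⟩
  have hcomm : ∀ c : ↥(centralizer ({(T : G)} : Set G)), q c * q x' = q x' * q c → (c : G) * x = x * c := by
    intro c hc
    have h1 : q (c * x' * c⁻¹ * x'⁻¹) = 1 := by
      rw [map_mul, map_mul, map_mul, map_inv, map_inv, hc]
      group
    have h2 : (c : G) * x' * (c : G)⁻¹ * (x' : G)⁻¹ = 1 ∨ (c : G) * x' * (c : G)⁻¹ * (x' : G)⁻¹ = T := (hk _).1 h1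
    rw [hx'] at h2
    rcases h2 with h2 | h2
    · calc (c : G) * x = (c : G) * x * (c : G)⁻¹ * x⁻¹ * (x * c) := by group
        _ = x * c := by rw [h2, one_mul]
    · exfalso
      have h3 : (c : G) * x * (c : G)⁻¹ = T * x := mul_inv_eq_iff_eq_mul.1 h2
      have h4 : ((c : G) * x * (c : G)⁻¹) ^ p = 1 := by rw [conj_pow, hxp]; group
      have h5 : Commute (T : G) x := hTx
      rw [h3, h5.mul_pow, hxp, mul_one, hTp] at h4
      exact hT1' h4
  have hmem : ∀ c : ↥(centralizer ({T} : Set ↥(centralizer ({x} : Set G)))),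
      ((c : ↥(centralizer ({x} : Set G))) : G) ∈ centralizer ({(T : G)} : Set G) := fun c =>
    mem_centralizer_singleton_iff.2 (congrArg Subtype.val (mem_centralizer_singleton_iff.1 c.2))
  let i : ↥(centralizer ({T} : Set ↥(centralizer ({x} : Set G)))) →* ↥(centralizer ({(T : G)} : Set G)) :=
    ((centralizer ({x} : Set G)).subtype.comp (Subgroup.subtype _)).codRestrict _ hmem
  have hi : ∀ c, (i c : G) = ((c : ↥(centralizer ({x} : Set G))) : G) := fun c => rfl
  have hix : ∀ c, i c * x' = x' * i c := by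
    intro c
    apply Subtype.ext
    show (i c : G) * x' = x' * i c
    rw [hi, hx']
    exact mem_centralizer_singleton_iff.1 (c : ↥(centralizer ({x} : Set G))).2
  let g : ↥(centralizer ({T} : Set ↥(centralizer ({x} : Set G)))) →* ↥(centralizer ({q x'} : Set Y)) :=
    (q.comp i).codRestrict _ fun c => mem_centralizer_singleton_iff.2 (by
      show q (i c) * q x' = q x' * q (i c)
      rw [← map_mul, hix, map_mul])
  have hg1 : ∀ c, g c = 1 ↔ (c : ↥(centralizer ({x} : Set G))) = 1 ∨ (c : ↥(centralizer ({x} : Set G))) = T := by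
    intro c
    have h1 : g c = 1 ↔ q (i c) = 1 := Subtype.ext_iff
    rw [h1, hk, hi, ← Subgroup.coe_one (centralizer ({x} : Set G)), Subtype.coe_inj, Subtype.coe_inj]
  have hgs : Function.Surjective g := by
    rintro ⟨b, hb⟩
    obtain ⟨c, rfl⟩ := hq b
    have h1 := hcomm c (mem_centralizer_singleton_iff.1 hb)
    exact ⟨⟨⟨c, mem_centralizer_singleton_iff.2 h1⟩, mem_centralizer_singleton_iff.2
      (Subtype.ext (mem_centralizer_singleton_iff.1 c.2))⟩, rfl⟩
  refine ⟨q x', ?_, ?_⟩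
  · refine orderOf_eq_prime ?_ fun h1 => ?_
    · rw [← map_pow]
      have h1 : x' ^ p = 1 := Subtype.ext (by rw [Subgroup.coe_pow, hx', hxp]; rfl)
      rw [h1, map_one]
    · rw [hk, hx'] at h1
      rcases h1 with h1 | h1
      · rw [h1, orderOf_one] at hx
        exact hp.out.one_lt.ne hx
      · rw [← h1] at hTT' hT1'
        have h2 : x ^ 2 = 1 := by rw [pow_two, hTT']
        have h3 := orderOf_dvd_of_pow_eq_one h2
        rw [hx, Nat.prime_dvd_prime_iff_eq hp.out Nat.prime_two] at h3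
        exact hp2 h3
  · refine constr_of_surj g hgs ?_ (fun V hVn hVc y hy => MonoidHom.mem_ker.2 ((hg1 y).2 (hV V hVn hVc y hy))) hR hRp hRs
    have h1 : IsPGroup 2 ↥g.ker := by
      intro a
      refine ⟨1, ?_⟩
      rw [pow_one, pow_two]
      apply Subtype.ext
      apply Subtype.ext
      rcases (hg1 a).1 a.2 with h2 | h2
      · show ((a : ↥(centralizer ({T} : Set ↥(centralizer ({x} : Set G))))) : ↥(centralizer ({x} : Set G))) *
          ((a : ↥(centralizer ({T} : Set ↥(centralizer ({x} : Set G))))) : ↥(centralizer ({x} : Set G))) = 1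
        rw [h2, one_mul]
      · show ((a : ↥(centralizer ({T} : Set ↥(centralizer ({x} : Set G))))) : ↥(centralizer ({x} : Set G))) *
          ((a : ↥(centralizer ({T} : Set ↥(centralizer ({x} : Set G))))) : ↥(centralizer ({x} : Set G))) = 1
        rw [h2, hTT]
    obtain ⟨n, hn⟩ := IsPGroup.iff_card.1 h1
    rw [hn]
    exact Nat.Coprime.pow_left _ ((Nat.coprime_primes Nat.prime_two hp.out).2 hp2.symm)

end Cfsg.Agent.H393.BF

namespace Cfsg.Agent.H393.BF

open Cfsg Cfsg.Agent.MonsterX Cfsg.Agent.MonsterX.InstData Cfsg.Agent.MonsterX.MainPack Cfsg.Agent.MonsterU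
open Cfsg.Agent.MonsterP Cfsg.Agent.MonsterN Cfsg.Agent.PreUniq Cfsg.Agent.PreUniqB
open Cfsg.Agent.LThreeMB (KChart.Cent KChart.pi KChart.chart fr)
open Cfsg.Agent.MonsterX.MainBasic Cfsg.Agent.MonsterX.MainSimple Cfsg.Agent.MonsterX.Model
open Cfsg.Agent.CpAutBFive
open Subgroup (centralizer mem_centralizer_singleton_iff center mem_inf)

universe u

/-- in the Baby Monster -/
theorem exists_baby : ∃ y : Spor.BabyMonster, orderOf y = 5 ∧
    centralizer (pCore 5 ↥(centralizer ({y} : Set Spor.BabyMonster)) : Set ↥(centralizer ({y} : Set Spor.BabyMonster))) ≤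
      pCore 5 ↥(centralizer ({y} : Set Spor.BabyMonster)) := by
  have h5 : Fact (Nat.Prime 5) := ⟨Nat.prime_five⟩
  have hfin : Finite ↥InstData.M.G := Cfsg.Agent.MFive.Row.finite_model
  have hJ : CpAutBFive.Closed.HJ := fun _ hs h => Cfsg.Agent.MFive.JTwo.isoJ2 hs h
  have h := KChart.chart KDone.lft Cfsg.Agent.MFive.Row.hc
  obtain ⟨x₀, k, hx₀, hfr₀, hk, hkk⟩ := BpSpor.M5.exists_k BpSpor.M5.hA
  have hJx := hJ _ (Cfsg.Agent.MFive.orderOf_pi h Nat.prime_five (by decide) hx₀) hfr₀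
  have hD := BpSpor.M5.dvd_zero h BpSpor.M5.trNe (CpAutBFive.Closed.coFive hJ) CpAutBFive.Closed.hnEight
    BpSpor.M5.hasPair (CoFive.Ranks.wclassOf _) CoFive.Sylow.exists_four hx₀ hfr₀
  obtain ⟨T, hTT, hT1, hTn, R, hR, hRp, hRs, hV⟩ := zero h BpSpor.M5.trNe BpSpor.M5.hasPair (CoFive.Ranks.wclassOf _)
    hx₀ hfr₀ hJx hD hk hkk
  obtain ⟨t, ht, hto, q, hq, hqk⟩ := H828.BThree.cover
  -- `T` is conjugate to `t`
  have hTT' : (T : ↥InstData.M.G) * T = 1 := congrArg Subtype.val hTT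
  have hT1' : (T : ↥InstData.M.G) ≠ 1 := fun h1 => hT1 (Subtype.ext h1)
  have hconj : IsConj RowB.t (T : ↥InstData.M.G) := by
    rcases LitFin.all.classes (T : ↥InstData.M.G) hTT' hT1' with ⟨g, hg⟩ | ⟨g, hg⟩
    · exfalso
      refine hTn g⁻¹ ?_
      have hz : KDone.K.z = zG LitFin.all.hG := Subtype.ext KDone.lnk.z_eq.symm
      calc g⁻¹ * (T : ↥InstData.M.G) * g⁻¹⁻¹ = g⁻¹ * (g * zG LitFin.all.hG * g⁻¹) * g := by rw [hg, inv_inv]
        _ = zG LitFin.all.hG := by group
        _ = KDone.K.z := hz.symm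
    · exact isConj_iff.2 ⟨g, hg⟩
  obtain ⟨g, hg⟩ := isConj_iff.1 (hconj.symm.trans ht)
  -- `C(T) → C(t)`
  have hmem : ∀ c : ↥(centralizer ({(T : ↥InstData.M.G)} : Set ↥InstData.M.G)), g * (c : ↥InstData.M.G) * g⁻¹ ∈
      centralizer ({t} : Set ↥InstData.M.G) := by
    intro c
    have h1 : (c : ↥InstData.M.G) * T = T * c := mem_centralizer_singleton_iff.1 c.2
    rw [mem_centralizer_singleton_iff, ← hg]
    calc g * (c : ↥InstData.M.G) * g⁻¹ * (g * T * g⁻¹) = g * (c * T) * g⁻¹ := by group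
      _ = g * (T * c) * g⁻¹ := by rw [h1]
      _ = _ := by group
  let j : ↥(centralizer ({(T : ↥InstData.M.G)} : Set ↥InstData.M.G)) →* ↥(centralizer ({t} : Set ↥InstData.M.G)) :=
    ((MulAut.conj g).toMonoidHom.comp (Subgroup.subtype _)).codRestrict _ hmem
  have hj : ∀ c, (j c : ↥InstData.M.G) = g * c * g⁻¹ := fun c => rfl
  refine constr_quot (by decide) (x := (x₀ : ↥InstData.M.G)) (by rw [Subgroup.orderOf_coe, hx₀]) hTT hT1 (q.comp j)
    ?_ ?_ hR hRp hRs hV
  · intro y
    obtain ⟨c, rfl⟩ := hq y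
    refine ⟨⟨g⁻¹ * c * g, ?_⟩, ?_⟩
    · have h1 : (c : ↥InstData.M.G) * t = t * c := mem_centralizer_singleton_iff.1 c.2
      rw [mem_centralizer_singleton_iff]
      calc g⁻¹ * (c : ↥InstData.M.G) * g * T = g⁻¹ * (c * (g * T * g⁻¹)) * g := by group
        _ = g⁻¹ * ((g * T * g⁻¹) * c) * g := by rw [hg, h1]
        _ = _ := by group
    · show q (j _) = q c
      congr 1
      apply Subtype.ext
      rw [hj]
      group
  · intro c
    show q (j c) = 1 ↔ _
    rw [hqk, hj, ← hg]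
    constructor
    · rintro (h1 | h1)
      · left
        calc (c : ↥InstData.M.G) = g⁻¹ * (g * c * g⁻¹) * g := by group
          _ = 1 := by rw [h1]; group
      · right
        calc (c : ↥InstData.M.G) = g⁻¹ * (g * c * g⁻¹) * g := by group
          _ = T := by rw [h1]; group
    · rintro (h1 | h1)
      · left
        rw [h1]
        group
      · right
        rw [h1]

/-- **S4555/S4559: the Baby Monster, `p = 5`.** -/
theorem b_five {K : Type u} [Group K] (h : Spor.IsoB K) (hNB : H7.NBp.NB 5 K) : H620.PNorm.VOrdP 5 K := by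
  have h5 : Fact (Nat.Prime 5) := ⟨Nat.prime_five⟩
  obtain ⟨e⟩ := h
  have hfin : Finite Spor.BabyMonster :=
    Nat.finite_of_card_ne_zero (by rw [(S1704.result : IsB Spor.BabyMonster).2]; norm_num)
  obtain ⟨y, hy, hc⟩ := exists_baby
  exact (H316.VZ.vOrdP_of_oneB (H7.NBp.NB.iso e hNB) hy fun M hM => H316.VZ.oneB_of_constrained hM hc).mulEquiv e.symm

end Cfsg.Agent.H393.BF
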